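import Cfsg.Agent.H583.HT.Three

/-!
# Involutions in the case `ETwo` (S3577, S3540, P4a; helper583)

* `count_two_lin`, `count_two_semi`, `card_two`;
* `card_sq_of_moved` : an element of `C` moving a coset of `A` in `F` has `|fx y| ^ 2 ≤ |V|`;
* `card_le_cosets` : counting over cosets of `A`.
-/

set_option autoImplicit false
set_option linter.unusedSectionVars false

open scoped commutatorElement
open Finset

namespace Cfsg.Agent.H583.HT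

open Cfsg.Agent.H828.HT Cfsg.Agent.H662.HT

universe u

variable {p : ℕ} [Fact p.Prime] {V : Type u} [AddCommGroup V] [Module (ZMod p) V] [Finite V]

section etwo

variable {G A F : Subgroup (V ≃ₗ[ZMod p] V)} {K : Type u} [Field K] [Module K V] {χ : A →* Kˣ} {σ : G →* (K ≃+* K)}
  {ρ : G →* Equiv.Perm (Fin 3)} {n : Fin 3 → (V ≃ₗ[ZMod p] V)}

theorem eq_zero_of_neg (hp : 5 ≤ p) {w : V} (h : w = -w) : w = 0 := by
  have h8 : (2 : ZMod p) • w = 0 := by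
    rw [two_smul]
    nth_rewrite 1 [h]
    exact neg_add_cancel _
  rcases smul_eq_zero.1 h8 with h9 | h9
  · exfalso
    have h10 : ((2 : ℕ) : ZMod p) = 0 := by exact_mod_cast h9
    rw [ZMod.natCast_eq_zero_iff] at h10
    exact absurd (Nat.le_of_dvd (by norm_num) h10) (by omega)
  · exact h9

/-- an element of `C` moving a coset -/
theorem card_sq_of_moved (E : ETwo G A F) (hK : KS G A K χ σ) (hp : 5 ≤ p) (R : Rho G A F ρ n) {y : G} {i : Fin 3}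
    (h3 : ρ y i ≠ i) (hσ : σ y = 1) : Nat.card (fx (y : V ≃ₗ[ZMod p] V)) ^ 2 ≤ Nat.card V := by
  obtain ⟨j, hj⟩ : ∃ j, ρ y i = j := ⟨_, rfl⟩
  rw [hj] at h3
  have h4 := (R.act y i j).1 hj
  -- the anticommuting elements
  obtain ⟨m, hm⟩ : ∃ m, m = (y : V ≃ₗ[ZMod p] V) * n i * (y : V ≃ₗ[ZMod p] V)⁻¹ := ⟨_, rfl⟩
  rw [← hm] at h4
  have hmF : m ∈ F := by rw [hm]; exact E.nF _ y.2 _ (R.memF i)
  have hmA : m ∉ A := by
    intro h
    apply R.notA i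
    have h5 := E.nA _ (inv_mem y.2) _ h
    have h6 : (y : V ≃ₗ[ZMod p] V)⁻¹ * m * (y : V ≃ₗ[ZMod p] V)⁻¹⁻¹ = n i := by rw [hm]; group
    rwa [h6] at h5
  have h0m : (n i)⁻¹ * m ∉ A := by
    intro h
    apply h3
    apply R.inj
    have h5 : (n j)⁻¹ * n i = ((n j)⁻¹ * m) * ((n i)⁻¹ * m)⁻¹ := by group
    rw [h5]
    exact mul_mem h4 (inv_mem h)
  have hanti := anti E (R.memF i) hmF (R.notA i) hmA h0m
  have hsq : m * m = n i * n i := by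
    have h5 := (hK.cen y).1 hσ _ (E.sq _ (R.memF i))
    calc m * m = ((y : V ≃ₗ[ZMod p] V) * (n i * n i)) * (y : V ≃ₗ[ZMod p] V)⁻¹ := by rw [hm]; group
      _ = n i * n i := by rw [h5]; group
  -- `u = m n⁻¹`
  have hu : (m * (n i)⁻¹) * (m * (n i)⁻¹) = ng p V := by
    have h5 : (n i)⁻¹ * m = ng p V * (m * (n i)⁻¹) := by
      have h6 : (n i)⁻¹ * (n i * m) * (n i)⁻¹ = (n i)⁻¹ * (ng p V * (m * n i)) * (n i)⁻¹ := by rw [hanti]
      have h7 : (n i)⁻¹ * (n i * m) * (n i)⁻¹ = m * (n i)⁻¹ := by group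
      have h8 : (n i)⁻¹ * (ng p V * (m * n i)) * (n i)⁻¹ = ((n i)⁻¹ * ng p V) * m := by group
      rw [h7, h8, ← ng_comm, mul_assoc] at h6
      rw [h6, ← mul_assoc, ng_mul_ng, one_mul]
    calc (m * (n i)⁻¹) * (m * (n i)⁻¹) = m * ((n i)⁻¹ * m) * (n i)⁻¹ := by group
      _ = (m * ng p V) * (m * (n i)⁻¹) * (n i)⁻¹ := by rw [h5]; group
      _ = ng p V * (m * m) * (n i * n i)⁻¹ := by rw [← ng_comm]; group
      _ = ng p V := by rw [hsq]; group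
  apply card_sq_le (n := n i)
  intro w hw hnw
  rw [mem_fx] at hw hnw
  have h5 : (m * (n i)⁻¹) (n i w) = n i w := by
    have h6 : (m * (n i)⁻¹) (n i w) = m w := by
      rw [← LinearEquiv.mul_apply, inv_mul_cancel_right]
    have h7 : m w = (y : V ≃ₗ[ZMod p] V) (n i ((y : V ≃ₗ[ZMod p] V)⁻¹ w)) := by rw [hm]; rfl
    have h8 : (y : V ≃ₗ[ZMod p] V)⁻¹ w = w := by
      have h9 : (y : V ≃ₗ[ZMod p] V)⁻¹ ((y : V ≃ₗ[ZMod p] V) w) = w := by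
        rw [← LinearEquiv.mul_apply, inv_mul_cancel]; rfl
      rwa [hw] at h9
    rw [h6, h7, h8, hnw]
  have h6 : n i w = -(n i w) := by
    have h7 : ((m * (n i)⁻¹) * (m * (n i)⁻¹)) (n i w) = n i w := by
      rw [LinearEquiv.mul_apply, h5, h5]
    rw [hu, ng_apply] at h7
    exact h7.symm
  exact (LinearEquiv.map_eq_zero_iff (n i)).1 (eq_zero_of_neg hp h6)

/-- P4a -/
theorem card_two [Nontrivial V] (E : ETwo G A F) (hK : KS G A K χ σ) (hp : 5 ≤ p) (_hcop : ¬ p ∣ Nat.card G)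
    {y : G} (hy : y ≠ 1) (hy2 : y * y = 1) (hfix : ∃ v : V, v ≠ 0 ∧ (y : V ≃ₗ[ZMod p] V) v = v) :
    Nat.card (fx (y : V ≃ₗ[ZMod p] V)) ^ 2 ≤ Nat.card V := by
  have hy2' : (y : V ≃ₗ[ZMod p] V) * (y : V ≃ₗ[ZMod p] V) = 1 := congrArg Subtype.val hy2
  by_cases hσ : σ y = 1
  · obtain ⟨ρ, n, R⟩ := exists_rho E
    by_cases h1 : ρ y = 1
    · -- `y ∈ F`
      have hF := R.mem_of_eq E hK h1 hσ
      have hA : (y : V ≃ₗ[ZMod p] V) ∉ A := by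
        intro h
        obtain ⟨v, hv, hv'⟩ := hfix
        exact hv (E.semi _ h (fun h6 => hy (Subtype.ext h6)) v hv')
      obtain ⟨i, hi⟩ : ∃ i, (n i)⁻¹ * (y : V ≃ₗ[ZMod p] V) ∉ A := by
        by_contra hcon
        push Not at hcon
        have h2 : (n 0)⁻¹ * n 1 = ((n 0)⁻¹ * (y : V ≃ₗ[ZMod p] V)) * ((n 1)⁻¹ * (y : V ≃ₗ[ZMod p] V))⁻¹ := by
          group
        have h3 : (n 0)⁻¹ * n 1 ∈ A := by
          rw [h2]
          exact mul_mem (hcon 0) (inv_mem (hcon 1))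
        exact absurd (R.inj 0 1 h3) (by decide)
      have hanti := anti E (R.memF i) hF (R.notA i) hA hi
      apply card_sq_le (n := n i)
      intro w hw hnw
      rw [mem_fx] at hw hnw
      have h5 : n i w = -(n i w) := by
        have h6 : (n i * (y : V ≃ₗ[ZMod p] V)) w = (ng p V * ((y : V ≃ₗ[ZMod p] V) * n i)) w := by rw [hanti]
        rw [LinearEquiv.mul_apply, LinearEquiv.mul_apply, LinearEquiv.mul_apply, ng_apply, hw, hnw] at h6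
        exact h6
      exact (LinearEquiv.map_eq_zero_iff (n i)).1 (eq_zero_of_neg hp h5)
    · obtain ⟨i, hi⟩ : ∃ i, ρ y i ≠ i := by
        by_contra hcon
        push Not at hcon
        exact h1 (Equiv.ext hcon)
      exact card_sq_of_moved E hK hp R hi hσ
  · -- semilinear
    have h1 := H528.HT.card_fix_semi' (K := K) (W := V) (σ y) hσ Nat.prime_two
      (y : V ≃ₗ[ZMod p] V).toAddEquiv (fun k w => hK.semi y k w) (fun w => by
        change (y : V ≃ₗ[ZMod p] V) ((y : V ≃ₗ[ZMod p] V) w) = w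
        rw [← LinearEquiv.mul_apply, hy2']
        rfl)
    have h2 : Nat.card (fx (y : V ≃ₗ[ZMod p] V)) =
        Nat.card {w : V // (y : V ≃ₗ[ZMod p] V).toAddEquiv w = w} := by
      apply Nat.card_congr
      exact Equiv.subtypeEquivRight fun w => by rw [mem_fx]; rfl
    rw [h2]
    exact h1

/-- counting over cosets of `A` -/
theorem card_le_cosets (_E : ETwo G A F) {S : G → Prop} (t : Finset (G ⧸ A.subgroupOf G))
    (hS : ∀ y : G, S y → (QuotientGroup.mk y : G ⧸ A.subgroupOf G) ∈ t) (B : ℕ)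
    (hB : ∀ y₁, S y₁ → Nat.card {y // S y ∧ (y₁ : V ≃ₗ[ZMod p] V)⁻¹ * (y : V ≃ₗ[ZMod p] V) ∈ A} ≤ B) :
    Nat.card {y // S y} ≤ B * t.card := by
  classical
  have := finite_gl (p := p) (V := V)
  have hmk : ∀ y y' : G, (QuotientGroup.mk y : G ⧸ A.subgroupOf G) = QuotientGroup.mk y' ↔
      (y : V ≃ₗ[ZMod p] V)⁻¹ * (y' : V ≃ₗ[ZMod p] V) ∈ A := by
    intro y y'
    exact QuotientGroup.eq (s := A.subgroupOf G) (a := y) (b := y')
  refine card_le_mul_of (S := S) (fun y => (QuotientGroup.mk y : G ⧸ A.subgroupOf G)) t hS B (fun b _ => ?_)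
  by_cases hne : ∃ y₁ : G, S y₁ ∧ (QuotientGroup.mk y₁ : G ⧸ A.subgroupOf G) = b
  · obtain ⟨y₁, h3, h4⟩ := hne
    refine le_trans (Nat.card_le_card_of_injective
      (fun y : {y : G // S y ∧ (QuotientGroup.mk y : G ⧸ A.subgroupOf G) = b} =>
        (⟨y.1, y.2.1, (hmk _ _).1 (h4.trans y.2.2.symm)⟩ :
        {y // S y ∧ (y₁ : V ≃ₗ[ZMod p] V)⁻¹ * (y : V ≃ₗ[ZMod p] V) ∈ A})) ?_) (hB y₁ h3)
    intro a b h
    have h5 : a.1 = b.1 := congrArg (fun z : {y // S y ∧ (y₁ : V ≃ₗ[ZMod p] V)⁻¹ * (y : V ≃ₗ[ZMod p] V) ∈ A} => z.1) h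
    exact Subtype.ext h5
  · have : IsEmpty {y : G // S y ∧ (QuotientGroup.mk y : G ⧸ A.subgroupOf G) = b} := ⟨fun y => hne ⟨y.1, y.2⟩⟩
    rw [Nat.card_of_isEmpty]
    exact Nat.zero_le _

/-- two involutions with the same images are in two cosets -/
theorem fix_of_invol (E : ETwo G A F) (hK : KS G A K χ σ) (R : Rho G A F ρ n) {y₀ y : G} (h0 : y₀ * y₀ = 1)
    (hy : y * y = 1) (hρ : ρ y₀ = ρ y) (hσ : σ y₀ = σ y) {i : Fin 3}
    (hi : (n i)⁻¹ * ((y₀ : V ≃ₗ[ZMod p] V)⁻¹ * (y : V ≃ₗ[ZMod p] V)) ∈ A) : ρ y₀ i = i := by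
  have h0' : (y₀ : V ≃ₗ[ZMod p] V) * (y₀ : V ≃ₗ[ZMod p] V) = 1 := congrArg Subtype.val h0
  have hy' : (y : V ≃ₗ[ZMod p] V) * (y : V ≃ₗ[ZMod p] V) = 1 := congrArg Subtype.val hy
  have hmF := R.inv_mul_mem E hK hρ hσ
  obtain ⟨m, hm⟩ : ∃ m, m = (y₀ : V ≃ₗ[ZMod p] V)⁻¹ * (y : V ≃ₗ[ZMod p] V) := ⟨_, rfl⟩
  rw [← hm] at hi hmF
  have e1 : (y : V ≃ₗ[ZMod p] V) = y₀ * m := by rw [hm]; group
  have e0 : (y₀ : V ≃ₗ[ZMod p] V)⁻¹ = y₀ := inv_eq_of_mul_eq_one_left h0'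
  have e2 : (y₀ : V ≃ₗ[ZMod p] V) * m * (y₀ : V ≃ₗ[ZMod p] V)⁻¹ = m⁻¹ := by
    rw [eq_inv_iff_mul_eq_one, e0]
    rw [e1] at hy'
    rw [← hy']
    group
  rw [R.act y₀ i i]
  have e3 : (n i)⁻¹ * ((y₀ : V ≃ₗ[ZMod p] V) * n i * (y₀ : V ≃ₗ[ZMod p] V)⁻¹) =
      ((n i)⁻¹ * m) * (m * m)⁻¹ * ((y₀ : V ≃ₗ[ZMod p] V) * ((n i)⁻¹ * m)⁻¹ * (y₀ : V ≃ₗ[ZMod p] V)⁻¹) := by
    have e4 : (y₀ : V ≃ₗ[ZMod p] V) * n i * (y₀ : V ≃ₗ[ZMod p] V)⁻¹ =
        ((y₀ : V ≃ₗ[ZMod p] V) * m * (y₀ : V ≃ₗ[ZMod p] V)⁻¹) *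
        ((y₀ : V ≃ₗ[ZMod p] V) * ((n i)⁻¹ * m)⁻¹ * (y₀ : V ≃ₗ[ZMod p] V)⁻¹) := by group
    rw [e4, e2]
    group
  rw [e3]
  exact mul_mem (mul_mem hi (inv_mem (E.sq m hmF))) (E.nA y₀ y₀.2 _ (inv_mem hi))

theorem uniq_fix : ∀ t : Equiv.Perm (Fin 3), t ≠ 1 → ∀ i j, t i = i → t j = j → i = j := by decide

/-- involutions with given images `ρ y ≠ 1` and `σ y`: two cosets of `A` -/
theorem card_le_two (E : ETwo G A F) (hK : KS G A K χ σ) (R : Rho G A F ρ n) {S : G → Prop} {s : K ≃+* K}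
    {t : Equiv.Perm (Fin 3)} (ht : t ≠ 1) (hS : ∀ y, S y → y * y = 1 ∧ ρ y = t ∧ σ y = s) (B : ℕ)
    (hB : ∀ y₁, S y₁ → Nat.card {y // S y ∧ (y₁ : V ≃ₗ[ZMod p] V)⁻¹ * (y : V ≃ₗ[ZMod p] V) ∈ A} ≤ B) :
    Nat.card {y // S y} ≤ B * 2 := by
  classical
  have := finite_gl (p := p) (V := V)
  by_cases hne : ∃ y₀, S y₀
  swap
  · have : IsEmpty {y : G // S y} := ⟨fun y => hne ⟨y.1, y.2⟩⟩
    rw [Nat.card_of_isEmpty]
    exact Nat.zero_le _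
  obtain ⟨y₀, hy₀⟩ := hne
  obtain ⟨i₀, hi₀⟩ : ∃ i₀ : Fin 3, ∀ i, t i = i → i = i₀ := by
    by_cases h : ∃ i, t i = i
    · obtain ⟨i₀, h0⟩ := h
      exact ⟨i₀, fun i hi => uniq_fix t ht i i₀ hi h0⟩
    · exact ⟨0, fun i hi => absurd ⟨i, hi⟩ h⟩
  have hmk : ∀ y y' : G, (QuotientGroup.mk y : G ⧸ A.subgroupOf G) = QuotientGroup.mk y' ↔
      (y : V ≃ₗ[ZMod p] V)⁻¹ * (y' : V ≃ₗ[ZMod p] V) ∈ A := by
    intro y y'
    exact QuotientGroup.eq (s := A.subgroupOf G) (a := y) (b := y')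
  let m : G := ⟨n i₀, E.FG (R.memF i₀)⟩
  have h1 := card_le_cosets E (S := S) ({QuotientGroup.mk y₀, QuotientGroup.mk (y₀ * m)} :
    Finset (G ⧸ A.subgroupOf G)) (fun y hy => by
    rw [Finset.mem_insert, Finset.mem_singleton]
    have hF := R.inv_mul_mem E hK ((hS y₀ hy₀).2.1.trans (hS y hy).2.1.symm) ((hS y₀ hy₀).2.2.trans (hS y hy).2.2.symm)
    rcases R.cov _ hF with h | ⟨i, h⟩
    · exact Or.inl ((hmk _ _).2 h).symm
    · right
      have h2 := fix_of_invol E hK R (hS y₀ hy₀).1 (hS y hy).1 ((hS y₀ hy₀).2.1.trans (hS y hy).2.1.symm)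
        ((hS y₀ hy₀).2.2.trans (hS y hy).2.2.symm) h
      rw [(hS y₀ hy₀).2.1] at h2
      have h3 := hi₀ i h2
      rw [h3] at h
      apply Eq.symm
      rw [hmk]
      have h4 : ((y₀ * m : G) : V ≃ₗ[ZMod p] V)⁻¹ * (y : V ≃ₗ[ZMod p] V) =
          (n i₀)⁻¹ * ((y₀ : V ≃ₗ[ZMod p] V)⁻¹ * (y : V ≃ₗ[ZMod p] V)) := by
        rw [Subgroup.coe_mul, mul_inv_rev, mul_assoc]
      rw [h4]
      exact h) B hB
  exact h1.trans (Nat.mul_le_mul_left B Finset.card_le_two)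

theorem card_split {S : G → Prop} (T : G → Prop) [Finite G] : Nat.card {y : G // S y} =
    Nat.card {y : G // S y ∧ T y} + Nat.card {y : G // S y ∧ ¬ T y} := by
  classical
  have := Fintype.ofFinite G
  rw [Nat.card_eq_fintype_card, Nat.card_eq_fintype_card, Nat.card_eq_fintype_card, Fintype.card_subtype,
    Fintype.card_subtype, Fintype.card_subtype]
  have h6 := Finset.card_filter_add_card_filter_not (s := Finset.univ.filter fun y : G => S y) (fun y => T y)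
  rw [Finset.filter_filter, Finset.filter_filter] at h6
  exact h6.symm

/-- P4a -/
theorem count_two_lin [Nontrivial V] (E : ETwo G A F) (hK : KS G A K χ σ) (_hp : 5 ≤ p) (_hcop : ¬ p ∣ Nat.card G) :
    Nat.card {y : G // y ≠ 1 ∧ y * y = 1 ∧ (∃ v : V, v ≠ 0 ∧ (y : V ≃ₗ[ZMod p] V) v = v) ∧ σ y = 1} ≤ 18 := by
  classical
  have := finite_gl (p := p) (V := V)
  obtain ⟨ρ, n, R⟩ := exists_rho E
  have hcos : ∀ (S : G → Prop), (∀ y, S y → y * y = 1 ∧ σ y = 1) → ∀ y₁, S y₁ →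
      Nat.card {y // S y ∧ (y₁ : V ≃ₗ[ZMod p] V)⁻¹ * (y : V ≃ₗ[ZMod p] V) ∈ A} ≤ 2 := by
    intro S hS y₁ hy₁
    refine le_trans (Nat.card_le_card_of_injective (fun y => (⟨y.1, by rw [pow_two]; exact (hS y.1 y.2.1).1, y.2.2⟩ :
      {y : G // y ^ 2 = 1 ∧ (y₁ : V ≃ₗ[ZMod p] V)⁻¹ * (y : V ≃ₗ[ZMod p] V) ∈ A})) ?_)
      (coset_lin E hK (by norm_num) (by rw [pow_two]; exact (hS y₁ hy₁).1) (hS y₁ hy₁).2)
    intro a b h
    have h5 : a.1 = b.1 := congrArg (fun z : {y : G // y ^ 2 = 1 ∧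
      (y₁ : V ≃ₗ[ZMod p] V)⁻¹ * (y : V ≃ₗ[ZMod p] V) ∈ A} => z.1) h
    exact Subtype.ext h5
  rw [card_split (fun y : G => ρ y = 1)]
  -- the elements of `F`
  have h1 := card_le_cosets E (S := fun y : G => (y ≠ 1 ∧ y * y = 1 ∧
      (∃ v : V, v ≠ 0 ∧ (y : V ≃ₗ[ZMod p] V) v = v) ∧ σ y = 1) ∧ ρ y = 1)
    (Finset.univ.image fun i : Fin 3 => (QuotientGroup.mk (⟨n i, E.FG (R.memF i)⟩ : G) : G ⧸ A.subgroupOf G))
    (fun y hy => by
      rw [Finset.mem_image]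
      have hF := R.mem_of_eq E hK hy.2 hy.1.2.2.2
      rcases R.cov _ hF with h | ⟨i, h⟩
      · exfalso
        obtain ⟨v, hv, hv'⟩ := hy.1.2.2.1
        exact hv (E.semi _ h (fun h6 => hy.1.1 (Subtype.ext h6)) v hv')
      · exact ⟨i, Finset.mem_univ i, QuotientGroup.eq.2 h⟩) 2 (hcos _ fun y hy => ⟨hy.1.2.1, hy.1.2.2.2⟩)
  have h2 : (Finset.univ.image fun i : Fin 3 =>
      (QuotientGroup.mk (⟨n i, E.FG (R.memF i)⟩ : G) : G ⧸ A.subgroupOf G)).card ≤ 3 := by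
    refine Finset.card_image_le.trans ?_
    rw [Finset.card_univ, Fintype.card_fin]
  -- the other elements
  have h3 := card_le_mul_of (S := fun y : G => (y ≠ 1 ∧ y * y = 1 ∧
      (∃ v : V, v ≠ 0 ∧ (y : V ≃ₗ[ZMod p] V) v = v) ∧ σ y = 1) ∧ ¬ ρ y = 1) (fun y => ρ y)
    (Finset.univ.filter fun t : Equiv.Perm (Fin 3) => t * t = 1 ∧ t ≠ 1) (fun y hy => by
      rw [Finset.mem_filter]
      exact ⟨Finset.mem_univ _, by rw [← map_mul, hy.1.2.1, map_one], hy.2⟩) (2 * 2) (fun t ht =>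
      card_le_two E hK R (s := 1) (t := t) (Finset.mem_filter.1 ht).2.2
        (fun y hy => ⟨hy.1.1.2.1, hy.2, hy.1.1.2.2.2⟩) 2 (hcos _ fun y hy => ⟨hy.1.1.2.1, hy.1.1.2.2.2⟩))
  have h4 : (Finset.univ.filter fun t : Equiv.Perm (Fin 3) => t * t = 1 ∧ t ≠ 1).card = 3 := by decide
  rw [h4] at h3
  have h5 : 2 * (Finset.univ.image fun i : Fin 3 =>
      (QuotientGroup.mk (⟨n i, E.FG (R.memF i)⟩ : G) : G ⧸ A.subgroupOf G)).card ≤ 2 * 3 :=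
    Nat.mul_le_mul_left 2 h2
  have h6 := Nat.add_le_add (h1.trans h5) h3
  exact h6

/-- P4a -/
theorem count_two_semi [Nontrivial V] (E : ETwo G A F) (hK : KS G A K χ σ) (_hp : 5 ≤ p) (_hcop : ¬ p ∣ Nat.card G)
    {q₀ : ℕ} (hq : Nat.card K = q₀ ^ 2) :
    Nat.card {y : G // y * y = 1 ∧ σ y ≠ 1} ≤ 10 * (q₀ + 1) := by
  classical
  have := finite_gl (p := p) (V := V)
  have := finite_aut hK
  have := Fintype.ofFinite (K ≃+* K)
  have := hK.fin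
  obtain ⟨ρ, n, R⟩ := exists_rho E
  have hq2 : 2 ≤ q₀ := by
    by_contra hlt
    have h1 : 1 < Nat.card K := Finite.one_lt_card
    rw [hq] at h1
    interval_cases q₀ <;> simp at h1
  have hdiv : (q₀ ^ 2 - 1) / (q₀ - 1) = q₀ + 1 := by
    obtain ⟨k, rfl⟩ := Nat.exists_eq_add_of_le' (show 1 ≤ q₀ by omega)
    have h1 : (k + 1) ^ 2 - 1 = k * (k + 1 + 1) := by
      rw [show (k + 1) ^ 2 = k * (k + 1 + 1) + 1 by ring]
      rfl
    rw [h1, Nat.add_sub_cancel, Nat.mul_div_cancel_left _ (by omega)]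
  rw [card_split (fun y : G => ρ y = 1)]
  have h1 := count_semi E hK R Nat.prime_two hq (S := fun y : G => (y * y = 1 ∧ σ y ≠ 1) ∧ ρ y = 1)
    (fun y hy => ⟨by rw [pow_two]; exact hy.1.1, hy.1.2⟩) {1} (fun y hy => Finset.mem_singleton.2 hy.2)
  rw [hdiv, Finset.card_singleton] at h1
  have h0 := card_aut_le hK (show 0 < 2 by norm_num)
  have h3 := card_le_mul_of (S := fun y : G => (y * y = 1 ∧ σ y ≠ 1) ∧ ¬ ρ y = 1) (fun y => (σ y, ρ y))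
    ((Finset.univ.filter fun t : K ≃+* K => t ^ 2 = 1 ∧ t ≠ 1) ×ˢ
      (Finset.univ.filter fun t : Equiv.Perm (Fin 3) => t * t = 1 ∧ t ≠ 1)) (fun y hy => by
      rw [Finset.mem_product, Finset.mem_filter, Finset.mem_filter]
      exact ⟨⟨Finset.mem_univ _, by rw [← map_pow, pow_two, hy.1.1, map_one], hy.1.2⟩,
        Finset.mem_univ _, by rw [← map_mul, hy.1.1, map_one], hy.2⟩) ((q₀ + 1) * 2) (fun b hb =>
      card_le_two E hK R (s := b.1) (t := b.2) (Finset.mem_filter.1 (Finset.mem_product.1 hb).2).2.2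
        (fun y hy => ⟨hy.1.1.1, congrArg Prod.snd hy.2, congrArg Prod.fst hy.2⟩) (q₀ + 1) (fun y₁ hy₁ => by
          have h5 := coset_semi' E hK Nat.prime_two hq (S := fun y : G => ((y * y = 1 ∧ σ y ≠ 1) ∧ ¬ ρ y = 1) ∧
            (σ y, ρ y) = b) (fun y hy => ⟨by rw [pow_two]; exact hy.1.1.1, hy.1.1.2⟩) hy₁
          rw [hdiv] at h5
          exact h5))
  have h4 : (Finset.univ.filter fun t : Equiv.Perm (Fin 3) => t * t = 1 ∧ t ≠ 1).card = 3 := by decide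
  rw [Finset.card_product, h4] at h3
  have h5 : (q₀ + 1) * 2 * ((Finset.univ.filter fun t : K ≃+* K => t ^ 2 = 1 ∧ t ≠ 1).card * 3) ≤
      (q₀ + 1) * 2 * ((2 - 1) * 3) := Nat.mul_le_mul_left _ (Nat.mul_le_mul_right _ h0)
  calc _ ≤ (q₀ + 1) * 4 * ((2 - 1) * 1) + (q₀ + 1) * 2 * ((2 - 1) * 3) := Nat.add_le_add h1 (h3.trans h5)
    _ = 10 * (q₀ + 1) := by ring

end etwo

end Cfsg.Agent.H583.HT
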